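import Mathlib
import Cfsg.Agent.Base
import Cfsg.Agent.Lib.Fusion.Gen
import Cfsg.Agent.Lib.Fusion.Criterion

/-!
# Adding an essential subgroup to a saturated fusion system (Broto, Levi, Oliver)
-/

set_option autoImplicit false

namespace H93

open Cfsg Cfsg.FusionSystem H90 Subgroup
open H68 (SylowIn)

variable {Ω : Type*} [Group Ω] {S : Subgroup Ω} {p : ℕ}

/-- The fusion system of all injective homomorphisms (extending to permutations). -/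
def allSys (S : Subgroup Ω) : FusionSystem S :=
  ofPerm S (fun P σ => P ≤ S ∧ HomOn P σ ∧ ∀ x ∈ P, σ x ∈ S) (fun _ _ h => ⟨h.1, h.2.2⟩)
    (fun _ _ h => h.2.1)
    (fun P g hP hg => ⟨hP, homOn_cj P g, fun _ hx => mul_mem (mul_mem hg (hP hx)) (inv_mem hg)⟩)
    (fun _ _ _ _ h h' hm => ⟨h.1, h.2.1.comp h'.2.1 hm, fun x hx => h'.2.2 _ (hm x hx)⟩)
    fun _ _ h => ⟨im_le_iff.2 h.2.2, h.2.1.inv_perm fun _ => h.2.1.apply_mem_im_perm,
      fun _ hx => h.1 (h.2.1.mem_im_perm.1 hx)⟩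

theorem map_allSys {P : Subgroup Ω} {σ : Equiv.Perm Ω} (hP : P ≤ S) (h : HomOn P σ)
    (hm : ∀ x ∈ P, σ x ∈ S) : Map (allSys S) P σ := map_ofPerm.2 ⟨σ, ⟨hP, h, hm⟩, fun _ _ => rfl⟩

/-- The system generated by `F` and a group `Δ` of automorphisms of `Q`. -/
def addAut (F : FusionSystem S) {Q : Subgroup Ω} (hQ : Q ≤ S) (Δ : Subgroup (MulAut Q)) :
    FusionSystem S :=
  gen (allSys S) (fun P σ => Map F P σ ∨ (P = Q ∧ ∃ δ ∈ Δ, σ = extA Q δ)) (by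
    rintro P σ (h | ⟨rfl, δ, -, rfl⟩)
    exacts [map_allSys h.le h.homOn fun _ => h.mem,
      map_allSys hQ (homOn_extA δ) fun _ hx => hQ (extA_mem δ hx)])

variable [Finite S] {F : FusionSystem S} {Q : Subgroup Ω} {hQ : Q ≤ S} {Δ : Subgroup (MulAut Q)}

theorem le_addAut : F ≤ addAut F hQ Δ := sub_iff_perm.2 fun _ _ h => map_gen_of (Or.inl h)

omit [Finite S] in
theorem le_autGroup_addAut : Δ ≤ (addAut F hQ Δ).autGroup Q := fun δ hδ =>
  (H90.mem_autGroup hQ).2 (map_gen_of (Or.inr ⟨rfl, δ, hδ, rfl⟩))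

omit [Finite S] in
theorem addAut_le {E : FusionSystem S} (h1 : F ≤ E) (h2 : Δ ≤ E.autGroup Q) :
    addAut F hQ Δ ≤ E :=
  gen_sub le_rfl (by
    rintro P σ (h | ⟨rfl, δ, hδ, rfl⟩)
    exacts [h.of_sub h1, (H90.mem_autGroup hQ).1 (h2 hδ)])

/-- `P` is not conjugate to a proper subgroup of `Q`. -/
def Big (F : FusionSystem S) (Q P : Subgroup Ω) : Prop := ∀ R σ, Iso F P R σ → R ≤ Q → R = Q

/-- The form of the maps of `addAut` on big subgroups. -/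
def Nf (F : FusionSystem S) {Q : Subgroup Ω} (Δ : Subgroup (MulAut Q)) (P : Subgroup Ω)
    (σ : Equiv.Perm Ω) : Prop :=
  Map F P σ ∨ ∃ χ : Equiv.Perm Ω, ∃ δ ∈ Δ, ∃ χ' : Equiv.Perm Ω, Iso F P Q χ ∧ Map F Q χ' ∧
    ∀ x ∈ P, σ x = χ' (extA Q δ (χ x))

variable {P P' : Subgroup Ω} {σ τ : Equiv.Perm Ω}

omit [Finite S] in
theorem Big.mono (h : Big F Q P) (hP : P ≤ P') : Big F Q P' := fun _ _ hσ hR =>
  have h1 := im_le_iff.2 fun _ hx => hσ.mem (hP hx)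
  le_antisymm hR (h _ _ (hσ.restrict hP) (h1.trans hR) ▸ h1)

omit [Finite S] in
theorem Big.iso (h : Big F Q P) (hσ : Iso F P P' σ) : Big F Q P' := fun _ _ hτ =>
  h _ _ (hσ.trans hτ)

theorem big_self (hQ : Q ≤ S) : Big F Q Q := fun _ _ hσ hR =>
  haveI := finite_of_le hQ
  eq_of_le_of_card_le hR hσ.card_eq.le

omit [Finite S] in
theorem Nf.congr (h : Nf F Δ P σ) (e : ∀ x ∈ P, σ x = τ x) : Nf F Δ P τ :=
  h.imp (·.congr e) fun ⟨χ, δ, hδ, χ', h1, h2, h3⟩ =>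
    ⟨χ, δ, hδ, χ', h1, h2, fun x hx => (e x hx).symm.trans (h3 x hx)⟩

omit [Finite S] in
theorem Nf.mono (h : Nf F Δ P' σ) (hP : P ≤ P') (hb : Big F Q P) : Nf F Δ P σ :=
  h.imp (·.mono hP) fun ⟨χ, δ, hδ, χ', h1, h2, e⟩ => ⟨χ, δ, hδ, χ', (h1.map.mono hP).iso_of_im
    (hb _ _ (h1.restrict hP) (im_le_iff.2 fun _ hx => h1.mem (hP hx))), h2, fun x hx => e x (hP hx)⟩

omit [Finite S] in
theorem iso_of_nf {E : FusionSystem S} (hσ : Iso E P P' σ) {χ χ' : Equiv.Perm Ω} {δ : MulAut Q}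
    (h1 : Iso F P Q χ) (h2 : Map F Q χ') (e : ∀ x ∈ P, σ x = χ' (extA Q δ (χ x))) :
    Iso F Q P' χ' :=
  h2.iso_of_im (le_antisymm (im_le_iff.2 fun y hy => by
    have h3 := h1.inv_mem (extA_inv_mem δ hy)
    have h4 := hσ.mem h3
    rw [e _ h3] at h4
    simpa using h4) fun y hy => by
      obtain ⟨x, hx, rfl⟩ := hσ.exists_eq hy
      exact e x hx ▸ mem_im_of_mem _ (extA_mem δ (h1.mem hx)))

theorem Nf.big {E : FusionSystem S} (h : Nf F Δ P σ) (hσ : Iso E P P' σ) (hb : Big F Q P) :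
    Big F Q P' := by
  rcases h with h | ⟨χ, δ, -, χ', h1, h2, e⟩
  exacts [hb.iso ⟨h, hσ.2⟩, (big_self h2.le).iso (iso_of_nf hσ h1 h2 e)]

omit [Finite S] in
theorem Nf.inv {E : FusionSystem S} (h : Nf F Δ P σ) (hσ : Iso E P P' σ) : Nf F Δ P' σ⁻¹ := by
  rcases h with h | ⟨χ, δ, hδ, χ', h1, h2, e⟩
  · exact Or.inl (Iso.symm ⟨h, hσ.2⟩).map
  · refine Or.inr ⟨χ'⁻¹, δ⁻¹, Δ.inv_mem hδ, χ⁻¹, (iso_of_nf hσ h1 h2 e).symm, h1.symm.map,
      fun y hy => ?_⟩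
    obtain ⟨x, hx, rfl⟩ := hσ.exists_eq hy
    rw [← extA_inv]
    conv_rhs => rw [e x hx]
    simp

theorem Nf.mul {E : FusionSystem S} (hΔ : F.autGroup Q ≤ Δ) (h : Nf F Δ P σ) (hσ : Iso E P P' σ)
    (h' : Nf F Δ P' τ) : Nf F Δ P (τ * σ) := by
  rcases h with h | ⟨χ, δ, hδ, χ', h1, h2, e⟩ <;> rcases h' with h' | ⟨ψ, ε, hε, ψ', h3, h4, e'⟩
  · exact Or.inl (h.mul h' fun _ => hσ.mem)
  · exact Or.inr ⟨ψ * σ, ε, hε, ψ', Iso.trans ⟨h, hσ.2⟩ h3, h4, fun x hx => e' _ (hσ.mem hx)⟩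
  · exact Or.inr ⟨χ, δ, hδ, τ * χ', h1, h2.mul h' fun _ => (iso_of_nf hσ h1 h2 e).mem,
      fun x hx => congrArg τ (e x hx)⟩
  · obtain ⟨γ, hγ, e''⟩ := ((iso_of_nf hσ h1 h2 e).trans h3).exists_aut
    refine Or.inr ⟨χ, ε * γ * δ, mul_mem (mul_mem hε (hΔ hγ)) hδ, ψ', h1, h4, fun x hx => ?_⟩
    rw [Equiv.Perm.mul_apply, e' _ (hσ.mem hx), e x hx, extA_mul_apply, extA_mul_apply,
      e'' _ (extA_mem δ (h1.mem hx)), Equiv.Perm.mul_apply]

theorem nf_of_map (hΔ : F.autGroup Q ≤ Δ) (h : Map (addAut F hQ Δ) P σ) (hb : Big F Q P) :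
    Nf F Δ P σ := by
  obtain ⟨σ', h₀, e⟩ := map_gen.1 h
  refine Nf.congr ?_ e
  replace hb : Big F Q P ∨ Big F Q (im σ' P) := Or.inl hb
  clear e h
  have hm : ∀ {P σ}, Gen S _ P σ → Map (addAut F hQ Δ) P σ := fun h =>
    map_gen.2 ⟨_, h, fun _ _ => rfl⟩
  induction h₀ with
  | base h =>
    rcases h with h | ⟨rfl, δ, hδ, rfl⟩
    exacts [Or.inl h, Or.inr ⟨1, δ, hδ, 1, iso_refl F hQ, map_one_perm F hQ, fun _ _ => rfl⟩]
  | conj hP hg => exact Or.inl (map_cj F hP hg)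
  | inv h ih => exact (ih (hb.symm.imp_left fun h1 => (hm h).iso.symm.im_eq ▸ h1)).inv (hm h).iso
  | @comp P P' σ τ h h' hmem ih ih' =>
    have h1 := (hm h).iso
    have h2 := im_le_iff.2 hmem
    have h3 : Big F Q (im σ P) := hb.elim (fun hb => (ih (Or.inl hb)).big h1 hb) fun hb => by
      have h4 : im ⇑(τ * σ) P ≤ im τ P' := im_le_iff.2 fun x hx => mem_im_of_mem τ (hmem x hx)
      have h5 := h1.symm.trans ((hm h).mul (hm h') hmem).iso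
      rw [mul_inv_cancel_right] at h5
      exact (((ih' (Or.inr (hb.mono h4))).inv (hm h').iso).mono h4 hb).big h5.symm hb
    exact (ih (Or.inr h3)).mul hΔ h1 ((ih' (Or.inl (h3.mono h2))).mono h2 h3)

theorem autGroup_addAut (hΔ : F.autGroup Q ≤ Δ) : (addAut F hQ Δ).autGroup Q = Δ := by
  refine le_antisymm (fun α hα => ?_) le_autGroup_addAut
  have h := iso_extA hQ hα
  rcases nf_of_map hΔ h.map (big_self hQ) with h | ⟨χ, δ, hδ, χ', h1, h2, e⟩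
  · exact hΔ ((H90.mem_autGroup hQ).2 h)
  · obtain ⟨γ, hγ, e1⟩ := h1.exists_aut
    obtain ⟨γ', hγ', e2⟩ := (iso_of_nf h h1 h2 e).exists_aut
    rw [show α = γ' * δ * γ from mulAut_ext fun x hx => by
      rw [e x hx, extA_mul_apply, extA_mul_apply, e1 x hx, e2 _ (extA_mem δ (h1.mem hx))]]
    exact mul_mem (mul_mem (hΔ hγ') hδ) (hΔ hγ)

theorem map_of_map_addAut (hΔ : F.autGroup Q ≤ Δ) (h : Map (addAut F hQ Δ) P σ) (hb : Big F Q P)
    (hn : ¬ F.IsConj P Q) : Map F P σ :=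
  (nf_of_map hΔ h hb).resolve_right fun ⟨_, _, _, _, h1, _⟩ => hn h1.isConj

theorem isCentric_addAut (hΔ : F.autGroup Q ≤ Δ) (hQc : F.IsCentric Q) (hb : Big F Q P)
    (hc : F.IsCentric P) : (addAut F hQ Δ).IsCentric P :=
  isCentric_iff.2 ⟨hc.1, fun _ _ hσ => (nf_of_map hΔ hσ.map hb).elim
    (fun h => (isCentric_iff.1 hc).2 _ _ ⟨h, hσ.2⟩)
    fun ⟨_, _, _, _, h1, h2, e⟩ => (isCentric_iff.1 hQc).2 _ _ (iso_of_nf hσ h1 h2 e)⟩

variable [Fact p.Prime]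

/-- Broto-Levi-Oliver: adding automorphisms of a minimal centric subgroup. -/
theorem isSaturated_addAut (hS : IsPGroup p S) (hF : F.IsSaturated p) (hQn : F.IsFullyNormalized Q)
    (hQc : F.IsCentric Q) (hΔ : F.autGroup Q ≤ Δ) (hsyl : SylowIn p (autInducedBy S Q) Δ)
    (hti : ∀ α ∈ Δ, ∀ g (hg : g ∈ normalizerIn S Q), g ∉ Q →
      α * conjAut Q g hg.2 * α⁻¹ ∈ autInducedBy S Q → α ∈ F.autGroup Q)
    (hmin : ∀ R < Q, ∃ δ ∈ Δ, ¬ F.IsCentric (im (extA Q δ) R))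
    (hess : ∀ P, F.IsEssential p P → Big F Q P) : (addAut F hQ Δ).IsSaturated p := by
  have hle : F ≤ addAut F hQ Δ := le_addAut
  have hbig : ∀ P, (addAut F hQ Δ).IsCentric P → Big F Q P := fun P hP R σ hσ hR => by
    by_contra hne
    obtain ⟨δ, hδ, h⟩ := hmin R (lt_of_le_of_ne hR hne)
    have h1 := ((iso_extA hQ (le_autGroup_addAut hδ)).restrict hR).isCentric
      ((hσ.of_sub hle).isCentric hP)
    exact h (isCentric_iff.2 ⟨h1.1, fun _ _ h2 => (isCentric_iff.1 h1).2 _ _ (h2.of_sub hle)⟩)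
  have hrec : ∀ {P R σ}, F.IsReceptive R → Iso F P R σ → ∃ τ : Equiv.Perm Ω,
      Map (addAut F hQ Δ) (Next S P σ) τ ∧ ∀ x ∈ P, τ x = σ x := fun h1 h2 =>
    let ⟨τ, h3, e⟩ := h2.extend h1; ⟨τ, h3.of_sub hle, e⟩
  refine isSaturated_of_centric hS (fun P hP => ?_) fun E hE => ?_
  · by_cases hPQ : (addAut F hQ Δ).IsConj P Q
    · obtain ⟨ρ, hρ⟩ := H90.isConj_iff.1 hPQ
      refine ⟨Q, ρ, hρ, isFullyAutomized_iff.2 ⟨hQ, (autGroup_addAut hΔ).symm ▸ hsyl⟩,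
        isReceptive_iff.2 ⟨hQ, fun P' σ hσ => ?_⟩⟩
      have hr := receptive_of_normalized hS hF hQn
      rcases nf_of_map hΔ hσ.map (hbig _ (hσ.symm.isCentric (hρ.isCentric hP))) with
        h | ⟨χ, -, -, -, h1, -⟩
      · exact hrec hr ⟨h, hσ.2⟩
      by_cases hN : Next S P' σ ≤ P'
      · exact ⟨σ, hσ.map.mono hN, fun _ _ => rfl⟩
      obtain ⟨g, hg, hgP⟩ := SetLike.not_le_iff_exists.1 hN
      obtain ⟨ψ, h2, h3, h4, -⟩ := h1.exists_normalizer_map' hS hF hQn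
      obtain ⟨α, hα, e⟩ := ((h3.of_sub hle).symm.trans hσ).exists_aut
      have h5 := hti α (autGroup_addAut (hQ := hQ) hΔ ▸ hα) _ (h4 g hg.1)
        (fun h => hgP (h3.mem_iff.1 h)) (by
          obtain ⟨k, hk, e'⟩ := hg.2
          refine H90.mem_autInducedBy.2 ⟨k, ⟨hk, hσ.witness_mem_normalizer hg.1.2 e'⟩,
            fun y hy => ?_⟩
          obtain ⟨x, hx, rfl⟩ := hσ.exists_eq hy
          have h6 : extA Q α⁻¹ (σ x) = ψ x := by
            rw [← extA_inv, Equiv.Perm.inv_eq_iff_eq, e _ (h3.mem hx)]; simp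
          have h7 := conj_mem_of_normalizerIn hg.1 hx
          rw [extA_mul_apply, extA_mul_apply, h6, extA_conjAut _ (h3.mem hx),
            ← h2.map_conj hg.1 (le_normalizerIn h1.le hx), e _ (h3.mem h7), ← e' x hx]
          simp)
      exact hrec hr ((h3.trans (iso_extA hQ h5)).congr fun x hx => by
        rw [Equiv.Perm.mul_apply, e _ (h3.mem hx)]; simp)
    · have key : ∀ P' (ρ σ : Equiv.Perm Ω), Iso (addAut F hQ Δ) P P' ρ →
          Map (addAut F hQ Δ) P' σ → Map F P' σ := fun P' ρ σ h1 h2 =>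
        map_of_map_addAut hΔ h2 (hbig _ (h1.isCentric hP))
          fun h => hPQ (isConj_trans h1.isConj (isConj_of_sub hle h))
      obtain ⟨R, ρ, hρ, h1, h2⟩ := (isSaturated_iff.1 hF) P hP.1
      have hρ' := hρ.of_sub hle
      refine ⟨R, ρ, hρ', isFullyAutomized_iff.2 ⟨h1.1, ?_⟩, isReceptive_iff.2 ⟨h1.1,
        fun P' σ hσ => hrec h2 ⟨key _ _ _ (hρ'.trans hσ.symm) hσ.map, hσ.2⟩⟩⟩
      rw [le_antisymm ((autGroup_le_iff h1.1 h1.1).2 fun σ hσ => key _ _ _ hρ' hσ.map)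
        (autGroup_mono hle R)]
      exact (isFullyAutomized_iff.1 h1).2
  · have key : ∀ P (σ : Equiv.Perm Ω), Big F Q P → F.IsCentric P → Map (addAut F hQ Δ) P σ →
        Map E P σ := fun P σ h1 h2 =>
      hom_subset_iff_map.1 (hE P (isCentric_addAut hΔ hQc h1 h2)) σ
    exact addAut_le (sub_of_essential hS hF
      (fun σ hσ => key _ _ ((big_self hQ).mono hQ) (isCentric_top F) (hσ.map.of_sub hle))
      fun P σ hP hσ => key _ _ (hess P hP) hP.1 (hσ.map.of_sub hle))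
      fun δ hδ => (H90.mem_autGroup hQ).2 (key _ _ (big_self hQ) hQc
        ((H90.mem_autGroup hQ).1 (le_autGroup_addAut hδ)))

omit [Finite S] [Fact p.Prime] in
theorem addEss_eq_defs : True := by
  have := @allSys.eq_def.{0}; have := @allSys.eq_1.{0}
  have := @addAut.eq_def.{0}; have := @addAut.eq_1.{0}
  have := @Big.eq_def.{0}; have := @Big.eq_1.{0}
  have := @Nf.eq_def.{0}; have := @Nf.eq_1.{0}
  trivial

end H93
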